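import Mathlib.RingTheory.Nilpotent.Basic
import Mathlib.Algebra.Polynomial.AlgebraMap
import Mathlib.Algebra.Polynomial.Div
import Mathlib.Algebra.CharP.Lemmas
import Mathlib.GroupTheory.Subgroup.Center

/-!
If an automorphism `σ` of an abelian group has `σ^p = 1` and `(σ-1)^(n(p-1)+1) = 0` then `σ` fixes
every `p^n`-th power.
-/

set_option autoImplicit false

namespace CfsgLib.FusionSub

open Polynomial in
theorem exists_one_add_X_pow_prime (p : ℕ) (hp : p.Prime) :
    ∃ r : ℤ[X], (1 + X) ^ p - 1 = (p : ℤ[X]) * X * (1 + X * r) + X ^ p := by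
  obtain ⟨r, hr⟩ := exists_add_pow_prime_eq hp (X : ℤ[X]) 1
  have h1 : r.coeff 0 = 1 := by
    have := congrArg (fun q : ℤ[X] => q.coeff 1) hr
    simp only [mul_one, one_pow, coeff_add, coeff_X_pow, coeff_one] at this
    rw [coeff_X_add_one_pow, Nat.choose_one_right, if_neg hp.one_lt.ne, if_neg (by norm_num)] at this
    rw [show (p : ℤ[X]) * X * r = C (p : ℤ) * (r * X) by simp [mul_assoc, mul_comm r X],
      coeff_C_mul, coeff_mul_X] at this
    exact mul_left_cancel₀ (Nat.cast_ne_zero.mpr hp.ne_zero) (by linarith)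
  obtain ⟨q, hq⟩ : X ∣ r - 1 := by
    rw [X_dvd_iff, coeff_sub, h1, coeff_one_zero, sub_self]
  refine ⟨q, ?_⟩
  rw [add_comm, hr, show r = 1 + X * q by rw [← hq]; ring]
  ring

/-- In a ring, `(1+d)^p = 1` and `d^(n(p-1)+j) = 0` (`j ≥ 1`) give `p^n d^j = 0`. -/
theorem prime_pow_mul_eq_zero {R : Type*} [Ring R] {p : ℕ} (hp : p.Prime) {d : R}
    (h : (1 + d) ^ p = 1) (n : ℕ) :
    ∀ j, 1 ≤ j → d ^ (n * (p - 1) + j) = 0 → (p : R) ^ n * d ^ j = 0 := by
  obtain ⟨r, hr⟩ := exists_one_add_X_pow_prime p hp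
  set e := Polynomial.aeval (R := ℤ) d r
  have hde : Commute d e := by
    have h := congrArg (Polynomial.aeval (R := ℤ) d) (mul_comm Polynomial.X r)
    simp only [map_mul, Polynomial.aeval_X] at h
    exact h
  have hrel : (p : R) * d * (1 + d * e) + d ^ p = 0 := by
    have := congrArg (Polynomial.aeval (R := ℤ) d) hr
    simp only [map_sub, map_pow, map_add, map_one, Polynomial.aeval_X, map_mul, map_natCast,
      h, sub_self] at this
    exact this.symm
  induction n with
  | zero => intro j _ hj; simpa using hj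
  | succ n ih =>
    intro j hj hd
    have hp1 : 1 ≤ p := hp.one_lt.le
    have hnil : IsNilpotent (d * e) := hde.isNilpotent_mul_right ⟨_, hd⟩
    obtain ⟨u, hu⟩ := hnil.isUnit_one_add
    have h1 : (p : R) ^ n * d ^ (p - 1 + j) = 0 := ih _ (by omega) (by
      rw [← hd]; congr 1; rw [Nat.succ_mul]; ring)
    have h2 : (p : R) * d ^ j * (1 + d * e) = -d ^ (p - 1 + j) := by
      have e1 : d ^ j = d ^ (j - 1) * d := by rw [← pow_succ]; congr 1; omega
      have e2 : d ^ (p - 1 + j) = d ^ (j - 1) * d ^ p := by rw [← pow_add]; congr 1; omega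
      have e3 : (p : R) * d ^ j * (1 + d * e) = d ^ (j - 1) * ((p : R) * d * (1 + d * e)) := by
        rw [e1, ← mul_assoc (d ^ (j - 1)), ← mul_assoc (d ^ (j - 1)), ← mul_assoc,
          (Nat.cast_commute p (d ^ (j - 1))).eq]
      rw [e3, e2, ← mul_neg]
      exact congrArg _ (eq_neg_of_add_eq_zero_left hrel)
    have h3 : (p : R) ^ (n + 1) * d ^ j * (1 + d * e) = 0 := by
      rw [pow_succ, mul_assoc _ (p : R), mul_assoc, h2, mul_neg, h1, neg_zero]
    rw [← hu] at h3
    exact (Units.mul_left_eq_zero u).mp h3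

/-- An automorphism `σ` of an abelian group with `σ^p = 1`, whose `(n(p-1)+1)`-fold commutator
vanishes, fixes all `p^n`-th powers. -/
theorem apply_pow_eq_of_iterate {A : Type*} [CommGroup A] {p : ℕ} (hp : p.Prime) (n : ℕ)
    (σ : A →* A) (hσ : ∀ a, (fun x => σ x)^[p] a = a)
    (hd : ∀ a, (fun x => σ x * x⁻¹)^[n * (p - 1) + 1] a = 1) (a : A) :
    σ (a ^ p ^ n) = a ^ p ^ n := by
  let u : AddMonoid.End (Additive A) := MonoidHom.toAdditive σ
  have hu : ∀ (k : ℕ) (x : A), (u ^ k) (Additive.ofMul x) =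
      Additive.ofMul ((fun x => σ x)^[k] x) := by
    intro k
    induction k with
    | zero => intro x; rfl
    | succ k ih =>
      intro x
      rw [pow_succ', Function.iterate_succ_apply']
      show u ((u ^ k) (Additive.ofMul x)) = _
      rw [ih]
      rfl
  have hdk : ∀ (k : ℕ) (x : A), ((u - 1) ^ k) (Additive.ofMul x) =
      Additive.ofMul ((fun x => σ x * x⁻¹)^[k] x) := by
    intro k
    induction k with
    | zero => intro x; rfl
    | succ k ih =>
      intro x
      rw [pow_succ', Function.iterate_succ_apply']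
      show (u - 1) (((u - 1) ^ k) (Additive.ofMul x)) = _
      rw [ih]
      show u _ - _ = _
      rw [sub_eq_add_neg]
      rfl
  have h0 := prime_pow_mul_eq_zero hp (d := u - 1)
    (by
      rw [add_sub_cancel]
      refine AddMonoidHom.ext fun x => ?_
      exact (hu p (Additive.toMul x)).trans (congrArg Additive.ofMul (hσ _))) n 1 le_rfl
    (by
      refine AddMonoidHom.ext fun x => ?_
      exact (hdk _ (Additive.toMul x)).trans (congrArg Additive.ofMul (hd _)))
  rw [pow_one, ← Nat.cast_pow] at h0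
  have h1 : (((p ^ n : ℕ) : AddMonoid.End (Additive A))) ((u - 1) (Additive.ofMul a)) = 0 :=
    DFunLike.congr_fun h0 (Additive.ofMul a)
  rw [AddMonoid.End.natCast_apply] at h1
  have h2 : (σ a * a⁻¹) ^ (p ^ n) = 1 := by
    have : (u - 1) (Additive.ofMul a) = Additive.ofMul (σ a * a⁻¹) := by
      rw [← pow_one (u - 1)]
      exact hdk 1 a
    rw [this, ← ofMul_pow] at h1
    exact Additive.ofMul.injective h1
  rw [mul_pow, inv_pow, mul_inv_eq_one] at h2
  rw [map_pow, h2]

end CfsgLib.FusionSub
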