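import Cfsg.Agent.Lib.FusionSub.NormalCriterion
import Cfsg.Agent.Lib.FusionSub.PowerTrick
import Cfsg.Prelude.Def_PLocal

/-!
For class at most `n(p-1)+1`, the subgroup of `p^n`-th powers of `Z(S)` is normal in every
saturated system on `S`; the exponent bound when nothing is normal.
-/

set_option autoImplicit false
set_option linter.style.haveILetI false

namespace CfsgLib.FusionSub

open Cfsg Cfsg.FusionSystem CfsgLib.Alperin

variable {Ω : Type*} [Group Ω] {S : Subgroup Ω}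

/-- Extension to a map on `P ⊔ V` that carries `V` onto itself. -/
def NormalizesExt (F : FusionSystem S) (V P : Subgroup Ω) (φ : P →* Ω) : Prop :=
  ∃ ψ ∈ F.Hom (P ⊔ V), (∀ x : P, ψ (Subgroup.inclusion le_sup_left x) = φ x) ∧
    (V.subgroupOf (P ⊔ V)).map ψ = V

theorem map_sup_le_of_normalizesExt {V P Q : Subgroup Ω} {φ : P →* Ω}
    {ψ : ↥(P ⊔ V) →* Ω} (hx : ∀ x : P, ψ (Subgroup.inclusion le_sup_left x) = φ x)
    (hV : (V.subgroupOf (P ⊔ V)).map ψ = V) (h : ∀ x : P, φ x ∈ Q) (y : ↥(P ⊔ V)) :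
    ψ y ∈ Q ⊔ V := by
  have hle : P ⊔ V ≤ ((Q ⊔ V).comap ψ).map (P ⊔ V).subtype := by
    refine sup_le (fun x hxP => ⟨⟨x, Subgroup.mem_sup_left hxP⟩, ?_, rfl⟩)
      (fun t ht => ⟨⟨t, Subgroup.mem_sup_right ht⟩, ?_, rfl⟩)
    · show ψ _ ∈ Q ⊔ V
      exact Subgroup.mem_sup_left ((hx ⟨x, hxP⟩).symm ▸ h ⟨x, hxP⟩)
    · exact Subgroup.mem_sup_right (hV.le ⟨_, ht, rfl⟩)
  obtain ⟨z, hz, hzy⟩ := hle y.2
  obtain rfl : z = y := Subtype.ext hzy
  exact hz

theorem closed_normalizesExt (F : FusionSystem S) (V : Subgroup Ω) :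
    Closed F (NormalizesExt F V) where
  restrict := by
    rintro P Q φ hQ _ ⟨ψ, hψ, hx, hV⟩
    refine ⟨_, restrict_mem hψ (sup_le_sup_right hQ V), fun x => hx (Subgroup.inclusion hQ x), ?_⟩
    ext y
    constructor
    · rintro ⟨w, hw, rfl⟩
      exact hV.le ⟨Subgroup.inclusion (sup_le_sup_right hQ V) w, hw, rfl⟩
    · intro hy
      obtain ⟨w, hw, e⟩ := hV.ge hy
      exact ⟨⟨w, Subgroup.mem_sup_right hw⟩, hw, e⟩
  comp := by
    rintro P Q φ χ _ _ h ⟨ψ, hψ, hx, hV⟩ ⟨χ', hχ', hy, hW⟩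
    refine ⟨_, F.comp_mem hψ hχ' (map_sup_le_of_normalizesExt hx hV h), fun x => ?_, ?_⟩
    · show χ' ⟨ψ _, _⟩ = χ ⟨φ x, h x⟩
      rw [← hy]
      exact congrArg χ' (Subtype.ext (hx x))
    · ext y
      constructor
      · rintro ⟨w, hw, rfl⟩
        exact hW.le ⟨⟨ψ w, _⟩, hV.le ⟨w, hw, rfl⟩, rfl⟩
      · intro hy'
        obtain ⟨⟨v, hv'⟩, hv, e⟩ := hW.ge hy'
        obtain ⟨w, hw, e'⟩ := hV.ge (Subgroup.mem_subgroupOf.mp hv)
        refine ⟨w, hw, ?_⟩
        show χ' ⟨ψ w, _⟩ = y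
        rw [← e]
        exact congrArg χ' (Subtype.ext e')
  inv := by
    rintro P Q φ χ hφ _ hr hχ ⟨ψ, hψ, hx, hV⟩
    obtain ⟨θ, hθ, -, hθ1, -⟩ := exists_inverse hψ rfl
    have hle : Q ⊔ V ≤ ψ.range := by
      refine sup_le ?_ fun t ht => ?_
      · intro y hy
        obtain ⟨x, rfl⟩ := hr.ge hy
        exact ⟨_, hx x⟩
      · obtain ⟨w, -, e⟩ := hV.ge ht
        exact ⟨w, e⟩
    refine ⟨_, restrict_mem hθ hle, fun y => ?_, ?_⟩
    · obtain ⟨x, hxy⟩ := hr.ge y.2
      obtain rfl : y = ⟨φ x, hr.le ⟨x, rfl⟩⟩ := Subtype.ext hxy.symm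
      rw [hχ]
      refine Eq.trans ?_ (hθ1 (Subgroup.inclusion le_sup_left x) ⟨_, rfl⟩)
      exact congrArg θ (Subtype.ext (hx x).symm)
    · ext y
      constructor
      · rintro ⟨⟨v, hv'⟩, hv, rfl⟩
        obtain ⟨w, hw, e⟩ := hV.ge (Subgroup.mem_subgroupOf.mp hv)
        have : (θ.comp (Subgroup.inclusion hle)) ⟨v, hv'⟩ = (w : Ω) := by
          refine Eq.trans ?_ (hθ1 w ⟨_, rfl⟩)
          exact congrArg θ (Subtype.ext e.symm)
        rw [this]
        exact hw
      · intro hy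
        have hyPV : y ∈ P ⊔ V := Subgroup.mem_sup_right hy
        have hwV : ψ ⟨y, hyPV⟩ ∈ V := hV.le ⟨_, hy, rfl⟩
        exact ⟨⟨ψ ⟨y, hyPV⟩, Subgroup.mem_sup_right hwV⟩, hwV, hθ1 ⟨y, hyPV⟩ ⟨_, rfl⟩⟩

theorem iterate_commutator_mem {s a : Ω} (hs : s ∈ S) (ha : a ∈ S) (k : ℕ) :
    (fun x => s * x * s⁻¹ * x⁻¹)^[k] a ∈ Subgroup.lowerCentralSeries S k := by
  induction k with
  | zero => simpa using ha
  | succ k ih =>
    rw [Function.iterate_succ_apply', Subgroup.lowerCentralSeries_succ]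
    have := Subgroup.inv_mem _ (Subgroup.commutator_mem_commutator ih hs)
    rw [commutatorElement_inv] at this
    exact this

variable {p : ℕ} [Fact p.Prime] [Finite S]

/-- An element normalizing a centric `P`, outside `P`, with `p`-th power in `P`. -/
theorem exists_order_p_mod (hS : IsPGroup p S) {P : Subgroup Ω} (hP : P < S) :
    ∃ g ∈ S, g ∈ Subgroup.normalizer (P : Set Ω) ∧ g ∉ P ∧ g ^ p ∈ P := by
  classical
  obtain ⟨g, hgS, hgN, hgP⟩ := exists_mem_normalizer_not_mem hS hP le_rfl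
  obtain ⟨k, hk⟩ := hS ⟨g, hgS⟩
  have hk' : g ^ p ^ k ∈ P := by
    have : g ^ p ^ k = 1 := congrArg Subtype.val hk
    rw [this]
    exact P.one_mem
  have hex : ∃ j, g ^ p ^ j ∈ P := ⟨k, hk'⟩
  have h0 : Nat.find hex ≠ 0 := fun h => hgP (by simpa [h] using Nat.find_spec hex)
  refine ⟨g ^ p ^ (Nat.find hex - 1), S.pow_mem hgS _, Subgroup.pow_mem _ hgN _,
    Nat.find_min hex (by omega), ?_⟩
  rw [← pow_mul, ← pow_succ, show Nat.find hex - 1 + 1 = Nat.find hex by omega]
  exact Nat.find_spec hex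

theorem isNormal_powerClosure_center (hS : IsPGroup p S) {F : FusionSystem S}
    (hF : F.IsSaturated p) (n : ℕ)
    (hcl : Subgroup.lowerCentralSeries S (n * (p - 1) + 1) = ⊥) :
    F.IsNormal (powerClosure p n (S ⊓ Subgroup.centralizer (S : Set Ω))) := by
  set Z : Subgroup Ω := S ⊓ Subgroup.centralizer (S : Set Ω) with hZdef
  set V := powerClosure p n Z with hVdef
  have hVZ : V ≤ Z := (Subgroup.closure_le _).mpr (by
    rintro _ ⟨x, hx, rfl⟩
    exact Z.pow_mem hx _)
  have hVS : V ≤ S := hVZ.trans inf_le_left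
  refine ⟨hVS, fun P φ hφ => ?_⟩
  suffices h : NormalizesExt F V P φ from h
  refine closed_induction_centric (Good := NormalizesExt F V) hS hF (closed_normalizesExt F V)
    (fun P hP hPc big α hα => ?_) hφ
  have hα' := (mem_autGroup_iff F hP.1).mp hα
  have hZP : Z ≤ P := le_trans (fun z hz => ?_) (hPc.2 P (isConj_refl F hP.1))
  swap
  · exact ⟨hz.1, fun y hy => hz.2 y (hP.1 hy)⟩
  have hVP : V ≤ P := hVZ.trans hZP
  haveI := finite_of_le hVS
  rcases eq_or_lt_of_le hP.1 with rfl | hlt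
  · have hmap : (V.subgroupOf (P ⊔ V)).map
        ((P.subtype.comp α.toMonoidHom).comp (Subgroup.inclusion (sup_le le_rfl hVP))) ≤ V := by
      rintro _ ⟨⟨v, hv'⟩, hv, rfl⟩
      have : V ≤ (V.comap (P.subtype.comp α.toMonoidHom)).map P.subtype := by
        rw [hVdef, powerClosure]
        refine (Subgroup.closure_le _).mpr ?_
        rintro _ ⟨x, hx, rfl⟩
        refine ⟨⟨x ^ p ^ n, P.pow_mem hx.1 _⟩, ?_, rfl⟩
        refine Subgroup.subset_closure ⟨((α ⟨x, hx.1⟩ : P) : Ω), ⟨(α _).2, fun y hy => ?_⟩, ?_⟩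
        · obtain ⟨y', hy'⟩ := α.surjective ⟨y, hy⟩
          have e : y' * ⟨x, hx.1⟩ = ⟨x, hx.1⟩ * y' := Subtype.ext (hx.2 y' y'.2)
          have := congrArg (fun z => ((α z : P) : Ω)) e
          simpa [hy'] using this
        · show ((α ⟨x ^ p ^ n, _⟩ : P) : Ω) = _
          rw [← Subgroup.coe_pow, ← map_pow]
          rfl
      obtain ⟨w, hw, e⟩ := this hv
      obtain rfl : w = ⟨v, hVP hv⟩ := Subtype.ext e
      exact hw
    refine ⟨_, restrict_mem hα' (sup_le le_rfl hVP), fun x => rfl,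
      Subgroup.eq_of_le_of_card_ge hmap ?_⟩
    rw [Subgroup.card_map_of_injective (F.injective_of_mem (restrict_mem hα' (sup_le le_rfl hVP))),
      Nat.card_congr (Subgroup.subgroupOfEquivOfLe (le_sup_right : V ≤ P ⊔ V)).toEquiv]
  -- `P < S`
  let K : Subgroup (MulAut P) :=
    { carrier := {β | ∀ x : P, x ∈ Subgroup.center P → β (x ^ p ^ n) = x ^ p ^ n}
      one_mem' := fun x _ => rfl
      mul_mem' := fun {β γ} hβ hγ x hx => by
        rw [MulAut.mul_apply, hγ x hx, hβ x hx]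
      inv_mem' := fun {β} hβ x hx => β.injective (by rw [MulAut.apply_inv_self, hβ x hx]) }
  have hcentre : ∀ (β : MulAut P) (x : P), x ∈ Subgroup.center P → β x ∈ Subgroup.center P :=
    fun β x hx => Subgroup.mem_center_iff.mpr fun y => by
      obtain ⟨y', rfl⟩ := β.surjective y
      rw [← map_mul, ← map_mul, Subgroup.mem_center_iff.mp hx y']
  have hK : ∀ β ∈ F.autGroup P, ∀ κ ∈ K, β * κ * β⁻¹ ∈ K := by
    intro β _ κ hκ x hx
    rw [MulAut.mul_apply, MulAut.mul_apply, map_pow β⁻¹, hκ _ (hcentre β⁻¹ x hx), ← map_pow β⁻¹,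
      MulAut.apply_inv_self]
  obtain ⟨κ, hκ, χ, hχ, he, R, hPR, ψ, hRN, hψ, hext, hgR⟩ :=
    frattini_extend hS hF hP K hK hα
  have Gκ : NormalizesExt F V P (P.subtype.comp κ.toMonoidHom) := by
    have hfix : ∀ (v : Ω) (hv : v ∈ V), κ ⟨v, hVP hv⟩ = ⟨v, hVP hv⟩ := by
      intro v hv
      have hle : V ≤ ((MonoidHom.eqLocus κ.toMonoidHom (MonoidHom.id P))).map P.subtype := by
        rw [hVdef, powerClosure]
        refine (Subgroup.closure_le _).mpr ?_
        rintro _ ⟨x, hx, rfl⟩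
        refine ⟨⟨x, hZP hx⟩ ^ p ^ n, ?_, rfl⟩
        exact hκ.1 ⟨x, hZP hx⟩ (Subgroup.mem_center_iff.mpr fun y => Subtype.ext (hx.2 y (hP.1 y.2)))
      obtain ⟨w, hw, e⟩ := hle hv
      obtain rfl : w = ⟨v, hVP hv⟩ := Subtype.ext e
      exact hw
    have hκ' := (mem_autGroup_iff F hP.1).mp hκ.2
    refine ⟨_, restrict_mem hκ' (sup_le le_rfl hVP), fun x => rfl, ?_⟩
    ext y
    constructor
    · rintro ⟨⟨v, hv'⟩, hv, rfl⟩
      show ((κ ⟨v, _⟩ : P) : Ω) ∈ V
      rw [hfix v hv]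
      exact hv
    · intro hy
      exact ⟨⟨y, Subgroup.mem_sup_right hy⟩, hy, congrArg Subtype.val (hfix y hy)⟩
  obtain ⟨g, hgS, hgN, hgP, hgp⟩ := exists_order_p_mod hS hlt
  have hgK : conjAut P g hgN ∈ K := by
    intro x hx
    let σ : Subgroup.center P →* Subgroup.center P :=
      ((conjAut P g hgN).toMonoidHom.comp (Subgroup.center P).subtype).codRestrict _
        fun z => hcentre (conjAut P g hgN) (z : P) z.2
    letI : CommGroup (Subgroup.center P) :=
      { (inferInstance : Group (Subgroup.center P)) with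
        mul_comm := fun a b => Subtype.ext (Subgroup.mem_center_iff.mp b.2 (a : P)) }
    have hσk : ∀ (k : ℕ) (a : Subgroup.center P),
        ((((fun z => σ z)^[k] a : Subgroup.center P) : P) : Ω) =
          g ^ k * ((a : P) : Ω) * (g ^ k)⁻¹ := by
      intro k
      induction k with
      | zero => intro a; simp
      | succ k ih =>
        intro a
        rw [Function.iterate_succ_apply']
        show g * ((((fun z => σ z)^[k] a : Subgroup.center P) : P) : Ω) * g⁻¹ = _
        rw [ih, pow_succ']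
        simp [mul_assoc]
    have hdk : ∀ (k : ℕ) (a : Subgroup.center P),
        ((((fun z => σ z * z⁻¹)^[k] a : Subgroup.center P) : P) : Ω) =
          (fun y => g * y * g⁻¹ * y⁻¹)^[k] ((a : P) : Ω) := by
      intro k
      induction k with
      | zero => intro a; rfl
      | succ k ih =>
        intro a
        rw [Function.iterate_succ_apply', Function.iterate_succ_apply', ← ih]
        rfl
    have := apply_pow_eq_of_iterate (Fact.out : p.Prime) n σ (fun a => ?_) (fun a => ?_) ⟨x, hx⟩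
    · exact congrArg Subtype.val this
    · apply Subtype.ext; apply Subtype.ext
      rw [hσk]
      have := congrArg Subtype.val (Subgroup.mem_center_iff.mp a.2 ⟨g ^ p, hgp⟩)
      rw [mul_inv_eq_iff_eq_mul]
      exact this
    · apply Subtype.ext; apply Subtype.ext
      rw [hdk]
      exact Subgroup.mem_bot.mp (hcl ▸ iterate_commutator_mem hgS (hP.1 (a : P).2) _)
  have hlt' : P < R := lt_of_le_of_ne hPR fun h => hgP (h.ge (hgR g hgS hgN hgK))
  have Gχ : NormalizesExt F V P (P.subtype.comp χ.toMonoidHom) :=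
    (closed_normalizesExt F V).restrict_apply hPR hψ
      (big R ψ hψ (card_lt_card (hRN.trans (normalizerIn_le S P)) hlt')) fun x => (hext x).symm
  have hm : ∀ x : P, (P.subtype.comp χ.toMonoidHom) x ∈ P := fun x => (χ x).2
  subst he
  exact (closed_normalizesExt F V).comp ((mem_autGroup_iff F hP.1).mp hχ)
    ((mem_autGroup_iff F hP.1).mp hκ.2) hm Gχ Gκ

/-- In a group whose centre has exponent dividing `m`, each factor of the upper central series
has exponent dividing `m`. -/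
theorem pow_mem_upperCentralSeries {G : Type*} [Group G] {m : ℕ}
    (h0 : ∀ x ∈ Subgroup.center G, x ^ m = 1) :
    ∀ (i : ℕ), ∀ x ∈ Subgroup.upperCentralSeries G (i + 1),
      x ^ m ∈ Subgroup.upperCentralSeries G i := by
  intro i
  induction i with
  | zero =>
    intro x hx
    rw [Subgroup.upperCentralSeries_zero, Subgroup.mem_bot]
    exact h0 x (by rwa [← Subgroup.upperCentralSeries_one])
  | succ i ih =>
    intro x hx
    rw [Subgroup.mem_upperCentralSeries_succ_iff] at hx ⊢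
    intro s
    let q := QuotientGroup.mk' (Subgroup.upperCentralSeries G i)
    have hc : x * s * x⁻¹ * s⁻¹ ∈ Subgroup.upperCentralSeries G (i + 1) := hx s
    have hcen : ∀ t, q t * q (x * s * x⁻¹ * s⁻¹) = q (x * s * x⁻¹ * s⁻¹) * q t := by
      intro t
      have h := Subgroup.mem_upperCentralSeries_succ_iff.mp hc t
      have h' : q ((x * s * x⁻¹ * s⁻¹) * t * (x * s * x⁻¹ * s⁻¹)⁻¹ * t⁻¹) = 1 :=
        (QuotientGroup.eq_one_iff _).mpr h
      simp only [map_mul, map_inv] at h' ⊢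
      exact (mul_inv_eq_iff_eq_mul.mp (mul_inv_eq_one.mp h')).symm
    have hcm : q (x * s * x⁻¹ * s⁻¹) ^ m = 1 := by
      rw [← map_pow]
      exact (QuotientGroup.eq_one_iff _).mpr (ih _ hc)
    have key : ∀ k : ℕ, q (x ^ k * s * (x ^ k)⁻¹ * s⁻¹) = q (x * s * x⁻¹ * s⁻¹) ^ k := by
      intro k
      induction k with
      | zero => simp
      | succ k ihk =>
        have e : x ^ (k + 1) * s * (x ^ (k + 1))⁻¹ * s⁻¹ =
            x * (x ^ k * s * (x ^ k)⁻¹ * s⁻¹) * x⁻¹ * (x * s * x⁻¹ * s⁻¹) := by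
          rw [pow_succ']; group
        rw [e, map_mul, map_mul, map_mul, ihk, map_inv, pow_succ]
        congr 1
        rw [(Commute.pow_right (hcen x) k).eq, mul_inv_cancel_right]
    show x ^ m * s * (x ^ m)⁻¹ * s⁻¹ ∈ Subgroup.upperCentralSeries G i
    refine (QuotientGroup.eq_one_iff _).mp ?_
    show q _ = 1
    rw [key, hcm]

theorem exponent_dvd_of_class (hS : IsPGroup p S) {F : FusionSystem S} (hF : F.IsSaturated p)
    (n : ℕ) (hcl : Subgroup.lowerCentralSeries S (n * (p - 1) + 1) = ⊥) (hcore : F.core = ⊥) :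
    Monoid.exponent S ∣ p ^ (n ^ 2 * (p - 1) + n) := by
  haveI := hS.isNilpotent
  set c := n * (p - 1) + 1 with hc
  have hV : powerClosure p n (S ⊓ Subgroup.centralizer (S : Set Ω)) = ⊥ :=
    le_bot_iff.mp (le_trans (le_sSup (s := {Q : Subgroup Ω | F.IsNormal Q}) (isNormal_powerClosure_center hS hF n hcl)) hcore.le)
  have h0 : ∀ x ∈ Subgroup.center S, x ^ (p ^ n) = 1 := by
    intro x hx
    apply Subtype.ext
    have : ((x : Ω)) ^ (p ^ n) ∈ powerClosure p n (S ⊓ Subgroup.centralizer (S : Set Ω)) :=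
      Subgroup.subset_closure ⟨x, ⟨x.2, fun y hy =>
        congrArg Subtype.val (Subgroup.mem_center_iff.mp hx ⟨y, hy⟩)⟩, rfl⟩
    rw [hV, Subgroup.mem_bot] at this
    simpa using this
  have htop : Subgroup.upperCentralSeries S c = ⊤ := by
    refine Subgroup.lowerCentralSeries_eq_bot_iff_upperCentralSeries_eq_top.mp ?_
    apply Subgroup.map_injective S.subtype_injective
    rw [Subgroup.top_subtype_lowerCentralSeries, hcl, Subgroup.map_bot]
  have key : ∀ k, k ≤ c → ∀ x : S, x ^ (p ^ (n * k)) ∈ Subgroup.upperCentralSeries S (c - k) := by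
    intro k
    induction k with
    | zero => intro _ x; simp [htop]
    | succ k ih =>
      intro hk x
      have h1 := ih (by omega) x
      rw [show c - k = c - (k + 1) + 1 by omega] at h1
      have := pow_mem_upperCentralSeries h0 _ _ h1
      rwa [← pow_mul, ← pow_add, ← Nat.mul_succ] at this
  rw [Monoid.exponent_dvd_iff_forall_pow_eq_one]
  intro x
  have := key c le_rfl x
  rw [Nat.sub_self, Subgroup.upperCentralSeries_zero, Subgroup.mem_bot] at this
  rw [show n ^ 2 * (p - 1) + n = n * c by rw [hc]; ring]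
  exact this

end CfsgLib.FusionSub
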