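import Cfsg.Agent.Lib.FusionBasics.Group
import Cfsg.Agent.Lib.FusionModels.Free
import Cfsg.Agent.Lib.FusionModels.Quotient
import Cfsg.Agent.Lib.NormalPComplement.Replacement

/-!
Local models of the fusion system of a finite group: at a fully normalized centric `Q` the quotient
`N_G(Q)/K` by the normal complement `K` of `Z(Q)` in `C_G(Q)`. In particular a group involved in a
local model is involved in the group.
-/

set_option autoImplicit false
set_option linter.unusedSectionVars false
set_option linter.style.haveILetI false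

namespace CfsgLib.FusionSub

open Cfsg Cfsg.FusionSystem CfsgLib.Alperin CfsgLib.FusionModels CfsgLib.FusionBasics

universe u v

variable {G : Type u} [Group G] [Finite G] {p : ℕ} [Fact p.Prime]

/-- In `A K`, with `K` of order prime to `p`, the `p`-subgroup `A` is the target of a conjugation by
an element of `K` for every `p`-subgroup. -/
theorem exists_conj_mem_of_le_sup {A B K : Subgroup G} [hK : K.Normal] (hA : IsPGroup p A)
    (hB : IsPGroup p B) (hcop : ¬ p ∣ Nat.card K) (hle : B ≤ A ⊔ K) :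
    ∃ k ∈ K, ∀ b ∈ B, k * b * k⁻¹ ∈ A := by
  obtain ⟨M, hM⟩ : ∃ M, M = A ⊔ K := ⟨_, rfl⟩
  have hAp : IsPGroup p (A.subgroupOf M) := hA.comap_subtype
  have hidx : ¬ p ∣ (A.subgroupOf M).index := by
    intro hd
    refine hcop (hd.trans ?_)
    show A.relIndex M ∣ Nat.card K
    have h1 : Nat.card A * A.relIndex M = Nat.card M := by
      rw [← Subgroup.relIndex_bot_left, Subgroup.relIndex_mul_relIndex _ _ _ bot_le (hM ▸ le_sup_left),
        Subgroup.relIndex_bot_left]
    have h2 : Nat.card M * Nat.card ↥(A ⊓ K) = Nat.card A * Nat.card K := by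
      rw [hM]
      exact CfsgLib.NormalPComplement.card_sup_mul_card_inf
        (Subgroup.normalizer_eq_top (H := K) ▸ le_top)
    rw [← h1, mul_assoc] at h2
    exact ⟨_, (Nat.eq_of_mul_eq_mul_left Nat.card_pos h2).symm⟩
  obtain ⟨R, hR⟩ := (hB.comap_subtype : IsPGroup p (B.subgroupOf M)).exists_le_sylow
  obtain ⟨m, hm⟩ := MulAction.exists_smul_eq M R (hAp.toSylow hidx)
  have hmem : ∀ b ∈ B, (m : G) * b * (m : G)⁻¹ ∈ A := by
    intro b hb
    have h1 : m * ⟨b, hM ▸ hle hb⟩ * m⁻¹ ∈ ((hAp.toSylow hidx : Sylow p M) : Subgroup M) := by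
      rw [← hm, Sylow.coe_subgroup_smul]
      exact Subgroup.smul_mem_pointwise_smul _ (MulAut.conj m) _ (hR hb)
    rw [IsPGroup.toSylow_coe, Subgroup.mem_subgroupOf] at h1
    exact h1
  obtain ⟨a, ha, k, hk, e⟩ := Subgroup.mem_sup_of_normal_right.1 (hM.le m.2)
  refine ⟨k, hk, fun b hb => ?_⟩
  have h1 := A.mul_mem (A.mul_mem (A.inv_mem ha) (hmem b hb)) ha
  rw [← e] at h1
  convert h1 using 1
  group

/-- The local models of a group fusion system, with the groups involved in them involved in `G`. -/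
theorem exists_group_localModel (P : Sylow p G) {Q : Subgroup G}
    (hQn : (groupFusionSystem (P : Subgroup G)).IsFullyNormalized Q)
    (hQc : (groupFusionSystem (P : Subgroup G)).IsCentric Q) :
    ∃ (L : Type u) (_ : Group L) (ι : ↥(normalizerIn (P : Subgroup G) Q) →* L) (ρ : L →* MulAut Q),
      IsLocalModel (groupFusionSystem (P : Subgroup G)) p Q
        ((groupFusionSystem (P : Subgroup G)).autGroup Q) ι ρ ∧
      ∀ (H : Type v) [Group H], Involves H L → Involves H G := by
  have hQP : Q ≤ (P : Subgroup G) := hQn.1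
  obtain ⟨N, hN⟩ : ∃ N, N = Subgroup.normalizer (Q : Set G) := ⟨_, rfl⟩
  have hCN : Subgroup.centralizer (Q : Set G) ≤ N := hN ▸ centralizer_le_normalizer Q
  obtain ⟨W, hW⟩ : ∃ W : Subgroup N, W = (Subgroup.centralizer (Q : Set G)).subgroupOf N :=
    ⟨_, rfl⟩
  obtain ⟨Z, hZ⟩ : ∃ Z : Subgroup N, Z = (Q ⊓ Subgroup.centralizer (Q : Set G)).subgroupOf N :=
    ⟨_, rfl⟩
  haveI hWn : W.Normal := by
    rw [hW]
    refine ⟨fun c hc g => ?_⟩
    rw [Subgroup.mem_subgroupOf, Subgroup.mem_centralizer_iff] at hc ⊢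
    intro q hq
    have hg : (g : G) ∈ Subgroup.normalizer (Q : Set G) := hN ▸ g.2
    have h1 := hc _ (mem_normalizer_conj (Subgroup.inv_mem _ hg) hq)
    show q * ((g : G) * c * (g : G)⁻¹) = (g : G) * c * (g : G)⁻¹ * q
    calc q * ((g : G) * c * (g : G)⁻¹)
        = (g : G) * (((g : G)⁻¹ * q * (g : G)⁻¹⁻¹) * c) * (g : G)⁻¹ := by group
      _ = (g : G) * c * (g : G)⁻¹ * q := by rw [h1]; group
  have hZW : Z ≤ W := hZ ▸ hW ▸ fun x hx => hx.2
  have hPQ : centralizerIn (P : Subgroup G) Q ≤ Q := hQc.2 Q (isConj_refl _ hQP)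
  obtain ⟨R, hR⟩ := (group_isFullyCentralized_iff P hQP).1
    (group_fullyCentralized_of_fullyNormalized P hQn)
  have hidx : ¬ p ∣ (Z.subgroupOf W).index := by
    have := R.not_dvd_index
    rw [hR] at this
    change ¬ p ∣ (centralizerIn (P : Subgroup G) Q).relIndex (Subgroup.centralizer (Q : Set G)) at this
    show ¬ p ∣ Z.relIndex W
    have e : centralizerIn (P : Subgroup G) Q = Q ⊓ Subgroup.centralizer (Q : Set G) :=
      le_antisymm (le_inf hPQ inf_le_right) (inf_le_inf_right _ hQP)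
    rw [e] at this
    rw [hZ, hW, Subgroup.subgroupOf, Subgroup.relIndex_comap,
      Subgroup.map_subgroupOf_eq_of_le hCN]
    exact this
  have hZp : IsPGroup p Z := hZ ▸ (P.isPGroup'.to_le (inf_le_left.trans hQP)).comap_subtype
  obtain ⟨K, hKn, hKW, hKdisj, hKsup⟩ := exists_normal_complement_of_central W Z hZW hZp
    (fun x hx w hw => Subtype.ext (by
      rw [hZ] at hx; rw [hW] at hw
      exact (hw x hx.1).symm)) hidx
  haveI := hKn
  have hKcard : ¬ p ∣ Nat.card K := by
    intro hd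
    obtain ⟨k, hk⟩ := exists_prime_orderOf_dvd_card' p hd
    have hkW : (k : N) ∈ W := hKW k.2
    haveI : (Z.subgroupOf W).Normal := ⟨fun x hx g => by
      rw [Subgroup.mem_subgroupOf] at hx ⊢
      have hg : (g : N) * (x : N) = (x : N) * (g : N) := by
        have h1 : ((x : N) : G) ∈ Q := by rw [hZ] at hx; exact hx.1
        have h2 : ((g : N) : G) ∈ Subgroup.centralizer (Q : Set G) := by
          exact hW.le g.2
        exact Subtype.ext (h2 _ h1).symm
      show (g : N) * (x : N) * (g : N)⁻¹ ∈ Z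
      rw [hg, mul_inv_cancel_right]
      exact hx⟩
    have h1 : (QuotientGroup.mk (⟨k, hkW⟩ : W) : W ⧸ Z.subgroupOf W) = 1 := by
      rw [← orderOf_eq_one_iff]
      refine Nat.Coprime.eq_one_of_dvd ?_ (orderOf_dvd_natCard _)
      have hdvd : orderOf (QuotientGroup.mk (⟨k, hkW⟩ : W) : W ⧸ Z.subgroupOf W) ∣ p := by
        rw [← hk]
        refine orderOf_dvd_of_pow_eq_one ?_
        rw [← QuotientGroup.mk_pow, show (⟨k, hkW⟩ : W) ^ orderOf k = 1 from Subtype.ext (by
          rw [Subgroup.coe_pow]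
          show (k : N) ^ orderOf k = 1
          rw [← Subgroup.coe_pow, pow_orderOf_eq_one]; rfl)]
        rfl
      exact Nat.Coprime.coprime_dvd_left hdvd
        ((Fact.out : p.Prime).coprime_iff_not_dvd.2 (by rwa [← Subgroup.index_eq_card]))
    have hkZ : (k : N) ∈ Z := (QuotientGroup.eq_one_iff (N := Z.subgroupOf W) _).1 h1
    have := hKdisj _ hkZ k.2
    rw [show k = 1 from Subtype.ext this, orderOf_one] at hk
    exact (Fact.out : p.Prime).ne_one hk.symm
  have hUN : normalizerIn (P : Subgroup G) Q ≤ N := hN ▸ inf_le_right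
  let π : N →* N ⧸ K := QuotientGroup.mk' K
  let ι : ↥(normalizerIn (P : Subgroup G) Q) →* N ⧸ K := π.comp (Subgroup.inclusion hUN)
  let act : N →* MulAut Q := Q.normalizerMonoidHom.comp (Subgroup.inclusion hN.le)
  have hact : ∀ (g : N) (q : Q), ((act g q : Q) : G) = (g : G) * q * (g : G)⁻¹ := fun g q => rfl
  have hker : K ≤ act.ker := fun k hk => by
    have hkW := hKW hk
    rw [hW] at hkW
    refine MulEquiv.ext fun q => Subtype.ext ?_
    rw [hact, MulAut.one_apply]
    have e : (q : G) * (k : G) = (k : G) * q := hkW q q.2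
    rw [← e, mul_inv_cancel_right]
  let ρ : N ⧸ K →* MulAut Q := QuotientGroup.lift K act hker
  have hinj : Function.Injective ι := by
    rw [injective_iff_map_eq_one]
    intro m hm
    have hmK : Subgroup.inclusion hUN m ∈ K := (QuotientGroup.eq_one_iff _).1 hm
    have hmW := hKW hmK
    rw [hW] at hmW
    have hmQ : (m : G) ∈ Q := hPQ ⟨m.2.1, hmW⟩
    have := hKdisj _ (hZ ▸ ⟨hmQ, hmW⟩) hmK
    exact Subtype.ext (congrArg (fun z : N => (z : G)) this)
  refine ⟨N ⧸ K, inferInstance, ι, ρ,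
    { finite := inferInstance
      inj := hinj
      index := ?_
      range_eq := ?_
      map_iota := fun m => MulEquiv.ext fun q => Subtype.ext rfl
      ker_le := ?_
      conj_apply := ?_
      hom := ?_
      lift := ?_ }, ?_⟩
  · intro hd
    refine group_fullyNormalized_relIndex P hQn ?_
    rw [← hN]
    refine hd.trans ?_
    rw [MonoidHom.range_comp, Subgroup.inclusion_range]
    exact Subgroup.index_map_dvd _ (QuotientGroup.mk'_surjective K)
  · rw [group_autGroup hQP]
    ext α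
    constructor
    · rintro ⟨l, rfl⟩
      obtain ⟨g, rfl⟩ := QuotientGroup.mk'_surjective K l
      exact mem_autInducedBy.mpr ⟨g, Subgroup.mem_top _, fun q => rfl⟩
    · intro hα
      obtain ⟨g, -, hg⟩ := mem_autInducedBy.mp hα
      have hgN : g ∈ N := by
        rw [hN]
        exact normalizer_of_induced (α := α) hg
      exact ⟨π ⟨g, hgN⟩, MulEquiv.ext fun q => Subtype.ext (hg q).symm⟩
  · intro l hl
    obtain ⟨g, rfl⟩ := QuotientGroup.mk'_surjective K l
    have hgW : g ∈ W := by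
      rw [hW, Subgroup.mem_subgroupOf, Subgroup.mem_centralizer_iff]
      intro q hq
      have h1 : ((act g ⟨q, hq⟩ : Q) : G) = q :=
        congrArg (fun β : MulAut Q => ((β ⟨q, hq⟩ : Q) : G)) hl
      rw [hact] at h1
      exact (mul_inv_eq_iff_eq_mul.1 h1).symm
    obtain ⟨k, hk, x, hx, rfl⟩ := hKsup g hgW
    rw [hZ] at hx
    refine ⟨⟨(x : G), le_normalizerIn hQP hx.1⟩, ⟨hx.1, hx.2⟩, ?_⟩
    show π _ = π (k * x)
    rw [map_mul, show π k = 1 from (QuotientGroup.eq_one_iff k).2 hk, one_mul]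
    rfl
  · intro l q h₁ h₂
    obtain ⟨g, rfl⟩ := QuotientGroup.mk'_surjective K l
    show π g * π _ * (π g)⁻¹ = π _
    rw [← map_inv, ← map_mul, ← map_mul]
    exact congrArg π (Subtype.ext rfl)
  · intro l S hS φ hφ
    obtain ⟨g, rfl⟩ := QuotientGroup.mk'_surjective K l
    obtain ⟨K', hK'⟩ : ∃ K' : Subgroup N, K' = K := ⟨_, rfl⟩
    let φN : S →* N := φ.codRestrict N fun x => hUN (hφ x).1
    let ψN : S →* N := (MulAut.conj g).toMonoidHom.comp (Subgroup.inclusion (hS.trans hUN))
    have hcong : ∀ x : S, (φN x)⁻¹ * ψN x ∈ K := fun x => by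
      obtain ⟨hh, e⟩ := hφ x
      refine (QuotientGroup.eq (s := K)).1 ?_
      show π (φN x) = π (ψN x)
      rw [show π (φN x) = ι ⟨φ x, hh⟩ from congrArg π (Subtype.ext rfl), ← e]
      show π g * π _ * (π g)⁻¹ = π (g * _ * g⁻¹)
      rw [← map_inv, ← map_mul, ← map_mul]
      rfl
    have hSp : IsPGroup p S := P.isPGroup'.to_le (hS.trans inf_le_left)
    obtain ⟨k, hk, hkmem⟩ := exists_conj_mem_of_le_sup (p := p) (A := φN.range) (B := ψN.range)
      (K := K) (hSp.of_surjective _ φN.rangeRestrict_surjective)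
      (hSp.of_surjective _ ψN.rangeRestrict_surjective) hKcard (by
        rintro _ ⟨x, rfl⟩
        have e : ψN x = φN x * ((φN x)⁻¹ * ψN x) := by group
        rw [e]
        exact Subgroup.mul_mem_sup ⟨x, rfl⟩ (hcong x))
    refine ⟨hS.trans inf_le_left, fun x => (hφ x).1.1, ((k * g : N) : G), fun x => ?_⟩
    obtain ⟨y, hy⟩ := hkmem (ψN x) ⟨x, rfl⟩
    have h1 : (φN x)⁻¹ * φN y ∈ K := by
      rw [hy]
      have : (φN x)⁻¹ * (k * ψN x * k⁻¹) =
          ((φN x)⁻¹ * k * φN x) * ((φN x)⁻¹ * ψN x) * k⁻¹ := by group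
      rw [this]
      refine K.mul_mem (K.mul_mem ?_ (hcong x)) (K.inv_mem hk)
      simpa using hKn.conj_mem k hk (φN x)⁻¹
    have h2 : φN (x⁻¹ * y) ∈ K := by rwa [map_mul, map_inv]
    have h3 : φN (x⁻¹ * y) = 1 := by
      have hmem : ((φN (x⁻¹ * y) : N) : G) ∈ normalizerIn (P : Subgroup G) Q := (hφ _).1
      have h4 : ι ⟨_, hmem⟩ = 1 := (QuotientGroup.eq_one_iff _).2 h2
      have h5 := (injective_iff_map_eq_one ι).1 hinj _ h4
      exact Subtype.ext (congrArg (fun z : ↥(normalizerIn (P : Subgroup G) Q) => (z : G)) h5)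
    rw [map_mul, map_inv, inv_mul_eq_one] at h3
    have h6 : φN x = k * ψN x * k⁻¹ := h3.trans hy
    have h7 : φ x = ((k : N) : G) * ((g : G) * (x : G) * (g : G)⁻¹) * ((k : N) : G)⁻¹ :=
      congrArg (fun z : N => (z : G)) h6
    rw [h7, Subgroup.coe_mul]
    group
  · intro S φ hS hQS hφ hφU α hα hαq
    obtain ⟨-, -, g, hg⟩ := hφ
    have hgN : g ∈ N := by
      rw [hN]
      exact normalizer_of_induced (α := α) fun q => (hαq q).symm.trans (hg _)
    refine ⟨π ⟨g, hgN⟩, MulEquiv.ext fun q => Subtype.ext ((hg _).symm.trans (hαq q)), fun x => ?_⟩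
    show π _ * π _ * (π _)⁻¹ = π _
    rw [← map_inv, ← map_mul, ← map_mul]
    exact congrArg π (Subtype.ext (hg x).symm)
  · intro H _ hinv
    exact CfsgLib.Amalgams.involves_of_involves_image π hinv (QuotientGroup.mk'_surjective K)

/-- If a group is involved in no section of `G`, the fusion system of `G` is free of it. -/
theorem group_isSectionFree {H : Type v} [Group H] (P : Sylow p G) (h : ¬ Involves H G) :
    (groupFusionSystem (P : Subgroup G)).IsSectionFree p H := by
  intro Q hQn hQc N hN L _ ι hM hinv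
  obtain ⟨L₁, _, ι₁, ρ₁, h₁, hsec⟩ := exists_group_localModel.{u, v} P hQn hQc
  obtain ⟨ρ, hL⟩ := exists_isLocalModel_of_isModel hN hM hQn.1 (hQc.2 Q (isConj_refl _ hQn.1))
  obtain ⟨f, -, -⟩ := IsLocalModel.unique P.isPGroup' (group_isSaturated P) hQn hQc
    (autInducedBy_le_autGroup _ hQn.1) le_rfl hL h₁
  exact h (hsec H (CfsgLib.FusionModels.involves_of_injective_hom f.toMonoidHom f.injective hinv))

end CfsgLib.FusionSub
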