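import Cfsg.Agent.Lib.FusionSub.QdSection
import Cfsg.Agent.Lib.FusionSub.GroupModel
import Cfsg.Agent.Lib.FusionSub.LocalGlobal

/-!
If `Qd(p)` is involved in `G`, `p` odd, it is involved in a local model of the fusion system of `G`.
-/

set_option autoImplicit false
set_option linter.unusedSectionVars false
set_option linter.style.haveILetI false

open Matrix
open scoped MatrixGroups Pointwise

namespace CfsgLib.FusionSub

open Cfsg Cfsg.FusionSystem CfsgLib.Alperin CfsgLib.FusionModels CfsgLib.Amalgams.Qd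

universe u

variable {G : Type u} [Group G] {p : ℕ} [Fact p.Prime]

/-- `U` maps onto the plane and every element of `SL₂(p)` is induced by an element of `G` normalizing
`U` and `Q`. -/
structure PlaneData (p : ℕ) [Fact p.Prime] (U Q : Subgroup G) where
  e : U → ZMod p × ZMod p
  surj : Function.Surjective e
  mul : ∀ a b : U, e (a * b) = e a + e b
  act : ∀ B : SL(2, ZMod p), ∃ n : G, n ∈ Subgroup.normalizer (Q : Set G) ∧
    ∀ u : U, ∃ h : n * (u : G) * n⁻¹ ∈ U, e ⟨_, h⟩ = planeAct B (e u)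

/-- Conjugating plane data. -/
theorem PlaneData.conj {U Q : Subgroup G} (D : PlaneData p U Q) (g : G) :
    Nonempty (PlaneData p (U.map (MulAut.conj g).toMonoidHom)
      (Q.map (MulAut.conj g).toMonoidHom)) := by
  have hmem : ∀ u : ↥(U.map (MulAut.conj g).toMonoidHom), g⁻¹ * (u : G) * g ∈ U := by
    rintro ⟨_, w, hw, rfl⟩
    show g⁻¹ * (g * w * g⁻¹) * g ∈ U
    rw [show g⁻¹ * (g * w * g⁻¹) * g = w by group]
    exact hw
  refine ⟨⟨fun u => D.e ⟨_, hmem u⟩, fun v => ?_, fun a b => ?_, fun B => ?_⟩⟩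
  · obtain ⟨u, hu⟩ := D.surj v
    refine ⟨⟨g * u * g⁻¹, u, u.2, rfl⟩, (congrArg D.e (Subtype.ext ?_)).trans hu⟩
    show g⁻¹ * (g * u * g⁻¹) * g = u
    group
  · rw [← D.mul]
    refine congrArg D.e (Subtype.ext ?_)
    show g⁻¹ * ((a : G) * b) * g = g⁻¹ * a * g * (g⁻¹ * b * g)
    group
  · obtain ⟨n, hn, hnU⟩ := D.act B
    refine ⟨g * n * g⁻¹, ?_, fun u => ?_⟩
    · rw [← CfsgLib.FusionBasics.map_conj_normalizer]
      exact ⟨n, hn, rfl⟩
    · obtain ⟨h, he⟩ := hnU ⟨_, hmem u⟩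
      have e1 : g * n * g⁻¹ * (u : G) * (g * n * g⁻¹)⁻¹ = g * (n * (g⁻¹ * u * g) * n⁻¹) * g⁻¹ := by
        group
      refine ⟨e1 ▸ ⟨_, h, rfl⟩, (congrArg D.e (Subtype.ext ?_)).trans he⟩
      show g⁻¹ * (g * n * g⁻¹ * (u : G) * (g * n * g⁻¹)⁻¹) * g = n * (g⁻¹ * u * g) * n⁻¹
      group

variable [Finite G]

/-- Plane data at a fully normalized centric subgroup gives a local model involving `Qd(p)`. -/
theorem PlaneData.not_sectionFree (hp : p ≠ 2) (P : Sylow p G) {U Q : Subgroup G}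
    (D : PlaneData p U Q) (hUQ : U ≤ Q)
    (hQn : (groupFusionSystem (P : Subgroup G)).IsFullyNormalized Q)
    (hQc : (groupFusionSystem (P : Subgroup G)).IsCentric Q) :
    ¬ (groupFusionSystem (P : Subgroup G)).IsSectionFree p ↥(Cfsg.qd p) := by
  intro hfree
  obtain ⟨L, _, ι, ρ, hL⟩ := exists_localModel P.isPGroup'
    (CfsgLib.FusionBasics.group_isSaturated P) hQn hQc (autInducedBy_le_autGroup _ hQn.1) le_rfl
  haveI := hL.finite
  have hUN : U ≤ normalizerIn (P : Subgroup G) Q := hUQ.trans (le_normalizerIn hQn.1)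
  let j : U →* L := ι.comp (Subgroup.inclusion hUN)
  have hj : Function.Injective j := hL.inj.comp (Subgroup.inclusion_injective hUN)
  -- the elements of `L` acting as some matrix
  let Act : L → SL(2, ZMod p) → Prop := fun l B =>
    ∀ u : U, ∃ v : U, j v = l * j u * l⁻¹ ∧ D.e v = planeAct B (D.e u)
  have hActInv : ∀ {l : L} {B : SL(2, ZMod p)}, Act l B → Act l⁻¹ B⁻¹ := by
    intro l B h
    choose f hf using h
    have hfinj : Function.Injective f := fun a b hab => by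
      have : l * j a * l⁻¹ = l * j b * l⁻¹ := by rw [← (hf a).1, ← (hf b).1, hab]
      exact hj (mul_left_cancel (mul_right_cancel this))
    intro u
    obtain ⟨v, rfl⟩ := (Finite.injective_iff_surjective.1 hfinj) u
    refine ⟨v, ?_, ?_⟩
    · rw [(hf v).1]; group
    · rw [(hf v).2, ← planeAct_mul, inv_mul_cancel, planeAct_one]
  let H : Subgroup L :=
    { carrier := {l | ∃ B, Act l B}
      one_mem' := ⟨1, fun u => ⟨u, by group, (planeAct_one _).symm⟩⟩
      mul_mem' := by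
        rintro l l' ⟨B, hB⟩ ⟨B', hB'⟩
        refine ⟨B * B', fun u => ?_⟩
        obtain ⟨v, hv, hve⟩ := hB' u
        obtain ⟨w, hw, hwe⟩ := hB v
        refine ⟨w, ?_, ?_⟩
        · rw [hw, hv]; group
        · rw [hwe, hve, planeAct_mul]
      inv_mem' := by
        rintro l ⟨B, hB⟩
        exact ⟨B⁻¹, hActInv hB⟩ }
  have huniq : ∀ {l : L} {B B' : SL(2, ZMod p)}, Act l B → Act l B' → B = B' := by
    intro l B B' h h'
    refine planeAct_injective fun x => ?_
    obtain ⟨u, rfl⟩ := D.surj x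
    obtain ⟨v, hv, hve⟩ := h u
    obtain ⟨v', hv', hve'⟩ := h' u
    rw [← hve, ← hve', hj (hv.trans hv'.symm)]
  let σ₀ : H → SL(2, ZMod p) := fun l => l.2.choose
  have hσ₀ : ∀ l : H, Act l (σ₀ l) := fun l => l.2.choose_spec
  let σ : H →* SL(2, ZMod p) := MonoidHom.mk' σ₀ fun l l' => huniq (hσ₀ (l * l')) fun u => by
    obtain ⟨v, hv, hve⟩ := hσ₀ l' u
    obtain ⟨w, hw, hwe⟩ := hσ₀ l v
    refine ⟨w, ?_, ?_⟩
    · rw [hw, hv, Subgroup.coe_mul]; group
    · rw [hwe, hve, planeAct_mul]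
  have hσ : Function.Surjective σ := by
    intro B
    obtain ⟨n, hn, hnU⟩ := D.act B
    obtain ⟨α, hαA, hα⟩ : ∃ α ∈ (groupFusionSystem (P : Subgroup G)).autGroup Q,
        ∀ q : Q, ((α q : Q) : G) = n * (q : G) * n⁻¹ :=
      ⟨conjAut Q n hn, by
        rw [CfsgLib.FusionBasics.group_autGroup hQn.1]
        exact conjAut_mem (Subgroup.mem_top n) hn, fun q => rfl⟩
    obtain ⟨l, hl⟩ := hL.range_eq.ge hαA
    have hact : Act l B := fun u => by
      obtain ⟨h, he⟩ := hnU u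
      refine ⟨⟨_, h⟩, ?_, he⟩
      refine Eq.trans ?_ (hL.conj_apply' hQn.1 l ⟨(u : G), hUQ u.2⟩).symm
      refine congrArg ι (Subtype.ext ?_)
      show n * (u : G) * n⁻¹ = ((ρ l ⟨(u : G), hUQ u.2⟩ : Q) : G)
      rw [hl, hα]
    exact ⟨⟨l, B, hact⟩, huniq (hσ₀ ⟨l, B, hact⟩) hact⟩
  have hUH : ∀ u : U, Act (j u) 1 := fun u v => by
    refine ⟨u * v * u⁻¹, by rw [map_mul, map_mul, map_inv], ?_⟩
    rw [planeAct_one, D.mul, D.mul]
    have h0 : D.e u⁻¹ + D.e u = 0 := by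
      rw [← D.mul, inv_mul_cancel]
      have := D.mul 1 1
      rw [one_mul] at this
      exact add_eq_left.1 this.symm
    calc D.e u + D.e v + D.e u⁻¹ = D.e v + (D.e u⁻¹ + D.e u) := by abel
      _ = D.e v := by rw [h0, add_zero]
  let jH : U →* H := j.codRestrict H fun u => ⟨1, hUH u⟩
  have hjH : Function.Injective jH := fun a b h => hj (congrArg Subtype.val h)
  have hone : D.e 1 = 0 := by
    have := D.mul 1 1
    rw [one_mul] at this
    exact add_eq_left.1 this.symm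
  let ker : Subgroup U :=
    { carrier := {u | D.e u = 0}
      one_mem' := hone
      mul_mem' := fun {a b} ha hb => by
        show D.e (a * b) = 0
        rw [D.mul, show D.e a = 0 from ha, show D.e b = 0 from hb, add_zero]
      inv_mem' := fun {a} ha => by
        show D.e a⁻¹ = 0
        have h := D.mul a⁻¹ a
        rw [inv_mul_cancel, hone, show D.e a = 0 from ha, add_zero] at h
        exact h.symm }
  haveI hkn : (ker.map jH).Normal := by
    constructor
    rintro _ ⟨u, hu, rfl⟩ g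
    obtain ⟨v, hv, hve⟩ := hσ₀ g u
    refine ⟨v, ?_, Subtype.ext hv⟩
    show D.e v = 0
    rw [hve, show D.e u = 0 from hu]
    simp [planeAct]
  let π : H →* H ⧸ ker.map jH := QuotientGroup.mk' _
  haveI hAn : (jH.range.map π).Normal := by
    refine Subgroup.Normal.map ⟨?_⟩ π (QuotientGroup.mk'_surjective _)
    rintro _ ⟨u, rfl⟩ g
    obtain ⟨v, hv, -⟩ := hσ₀ g u
    exact ⟨v, Subtype.ext hv⟩
  have hσker : ker.map jH ≤ σ.ker := by
    rintro _ ⟨u, -, rfl⟩
    exact huniq (hσ₀ (jH u)) (hUH u)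
  let σ' : H ⧸ ker.map jH →* SL(2, ZMod p) := QuotientGroup.lift _ σ hσker
  have hex : ∀ a : ↥(jH.range.map π), ∃ u : U, π (jH u) = a := by
    rintro ⟨_, _, ⟨u, rfl⟩, rfl⟩
    exact ⟨u, rfl⟩
  choose fu hfu using hex
  have hfu_eq : ∀ (a : ↥(jH.range.map π)) (u : U), π (jH u) = (a : H ⧸ ker.map jH) →
      D.e (fu a) = D.e u := by
    intro a u h
    have h1 : (jH u)⁻¹ * jH (fu a) ∈ ker.map jH := QuotientGroup.eq.1 (h.trans (hfu a).symm)
    obtain ⟨k, hk, hke⟩ := h1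
    have h2 : fu a = u * k := hjH (by rw [map_mul, hke, mul_inv_cancel_left])
    rw [h2, D.mul, show D.e k = 0 from hk, add_zero]
  have hinv : Involves ↥(Cfsg.qd p) (H ⧸ ker.map jH) := by
    refine involves_qd_of_action hp (A := jH.range.map π) (fun a => D.e (fu a)) ⟨?_, ?_⟩ ?_ σ'
      (fun B => ?_) ?_
    · intro a b hab
      simp only at hab
      refine Subtype.ext ?_
      rw [← hfu a, ← hfu b]
      refine QuotientGroup.eq.2 ⟨(fu a)⁻¹ * fu b, ?_, by rw [map_mul, map_inv]⟩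
      show D.e ((fu a)⁻¹ * fu b) = 0
      have h := D.mul (fu a)⁻¹ (fu a)
      rw [inv_mul_cancel, hone] at h
      rw [D.mul, ← hab, ← h]
    · intro x
      obtain ⟨u, rfl⟩ := D.surj x
      exact ⟨⟨π (jH u), ⟨jH u, ⟨u, rfl⟩, rfl⟩⟩, hfu_eq _ u rfl⟩
    · intro a b
      rw [← D.mul]
      exact hfu_eq _ _ (by rw [map_mul, map_mul, hfu, hfu, Subgroup.coe_mul])
    · obtain ⟨h, rfl⟩ := hσ B
      exact ⟨π h, rfl⟩
    · intro g a
      obtain ⟨h, rfl⟩ := QuotientGroup.mk'_surjective (ker.map jH) g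
      obtain ⟨v, hv, hve⟩ := hσ₀ h (fu a)
      refine (hfu_eq _ v ?_).trans hve
      show π (jH v) = π h * (a : H ⧸ ker.map jH) * (π h)⁻¹
      rw [← hfu a, ← map_inv, ← map_mul, ← map_mul]
      exact congrArg π (Subtype.ext hv)
  exact CfsgLib.FusionModels.not_involves_of_sectionFree P.isPGroup' hfree hQn hQc hL
    (CfsgLib.Amalgams.involves_of_involves_image π hinv (QuotientGroup.mk'_surjective _))

/-- **`Qd(p)` involved in `G` is involved in the fusion system.** -/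
theorem not_sectionFree_of_involves_qd (hp : p ≠ 2) (P : Sylow p G)
    (h : Involves ↥(Cfsg.qd p) G) :
    ¬ (groupFusionSystem (P : Subgroup G)).IsSectionFree p ↥(Cfsg.qd p) := by
  obtain ⟨K, f, hf⟩ := CfsgLib.Amalgams.exists_surjective_of_involves h
  let f' : K →* ↥(qdOver (ZMod p)) := f
  let τ : K →* SL(2, ZMod p) := (lin (F := ZMod p)).comp f'
  obtain ⟨R⟩ : Nonempty (Sylow p ↥τ.ker) := inferInstance
  let g : τ.ker →* ↥(trans (F := ZMod p)) := (f'.comp τ.ker.subtype).codRestrict _ fun x => x.2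
  have hg : Function.Surjective g := fun t => by
    obtain ⟨x, hx⟩ := hf t.1
    refine ⟨⟨x, ?_⟩, Subtype.ext hx⟩
    show lin (F := ZMod p) (f' x) = 1
    rw [show f' x = t.1 from hx]
    exact t.2
  have hgR : (R : Subgroup τ.ker).map g = ⊤ := by
    have h1 := (R.mapSurjective hg).not_dvd_index
    have h2 : IsPGroup p (⊤ : Subgroup ↥(trans (F := ZMod p))) :=
      (isPGroup_trans (F := ZMod p) (p := p)).to_subgroup ⊤
    change ¬ p ∣ ((R : Subgroup τ.ker).map g).index at h1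
    obtain ⟨k, hk⟩ := (isPGroup_trans (F := ZMod p) (p := p)).index ((R : Subgroup τ.ker).map g)
    rw [hk] at h1
    rcases k with - | k
    · exact Subgroup.index_eq_one.1 (hk.trans (pow_zero p))
    · exact absurd (dvd_pow_self p k.succ_ne_zero) h1
  obtain ⟨U, hU⟩ : ∃ U : Subgroup G,
      U = ((R : Subgroup τ.ker).map τ.ker.subtype).map K.subtype := ⟨_, rfl⟩
  have hUK : U ≤ K := hU ▸ Subgroup.map_subtype_le _
  have hUp : IsPGroup p U := hU ▸ (R.isPGroup'.map _).map _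
  let e₁ : U → ZMod p × ZMod p := fun u =>
    (((f' ⟨u, hUK u.2⟩ : qdOver (ZMod p)) : SL(3, ZMod p)).1 0 2,
      ((f' ⟨u, hUK u.2⟩ : qdOver (ZMod p)) : SL(3, ZMod p)).1 1 2)
  have hfU : ∀ u : U, f' ⟨u, hUK u.2⟩ = shift (e₁ u) := by
    intro u
    obtain ⟨_, ⟨w, hw, rfl⟩, he⟩ := hU.le u.2
    have e0 : (⟨(u : G), hUK u.2⟩ : K) = w.1 := Subtype.ext he.symm
    obtain ⟨c, d, hcd⟩ := mem_trans_iff.1 (g w).2
    have h1 : f' ⟨u, hUK u.2⟩ = aff 1 c d := (congrArg f' e0).trans hcd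
    show _ = aff 1 _ _
    simp only [e₁, h1, coe_aff]
    rfl
  have hsurj : Function.Surjective e₁ := by
    intro v
    obtain ⟨w, hw, hwv⟩ : (⟨shift v, mem_trans_iff.2 ⟨_, _, rfl⟩⟩ : ↥(trans (F := ZMod p))) ∈
        (R : Subgroup τ.ker).map g := hgR ▸ Subgroup.mem_top _
    refine ⟨⟨(w.1 : G), hU ▸ ⟨_, ⟨w, hw, rfl⟩, rfl⟩⟩, shift_injective ?_⟩
    rw [← hfU]
    exact congrArg Subtype.val hwv
  have hmul : ∀ a b : U, e₁ (a * b) = e₁ a + e₁ b := fun a b => shift_injective (by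
    rw [shift_add, ← hfU, ← hfU, ← hfU, ← map_mul]
    rfl)
  -- every matrix is induced by an element of `K` normalizing `U`
  have hK : ∀ B : SL(2, ZMod p), ∃ m : G, m ∈ Subgroup.normalizer (U : Set G) ∧
      ∀ u : U, ∃ h : m * (u : G) * m⁻¹ ∈ U, e₁ ⟨_, h⟩ = planeAct B (e₁ u) := by
    intro B
    obtain ⟨k, hk⟩ := hf (aff B 0 0)
    have hkk : k ∈ Subgroup.normalizer (((R : Subgroup τ.ker).map τ.ker.subtype : Subgroup K) : Set K) ⊔
        τ.ker := by
      rw [Sylow.normalizer_sup_eq_top]; trivial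
    obtain ⟨m, hm, v, hv, rfl⟩ := Subgroup.mem_sup_of_normal_right.1 hkk
    have hmU : (m : G) ∈ Subgroup.normalizer (U : Set G) := by
      rw [hU]
      exact Subgroup.le_normalizer_map (f := K.subtype) ⟨m, hm, rfl⟩
    refine ⟨m, hmU, fun u => ⟨mem_normalizer_conj hmU u.2, shift_injective ?_⟩⟩
    rw [← hfU]
    have hB : lin (F := ZMod p) (f' m) = B := by
      have h1 : τ (m * v) = B := (congrArg (lin (F := ZMod p)) hk).trans (lin_aff _ _ _)
      rw [map_mul, show τ v = 1 from hv, mul_one] at h1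
      exact h1
    rw [← hB]
    refine Eq.trans ?_ (conj_shift (f' m) (e₁ u))
    rw [← hfU, ← map_inv, ← map_mul, ← map_mul]
    rfl
  -- move `U` to a fully normalized subgroup of `P`
  obtain ⟨P₁, hP₁⟩ := hUp.exists_le_sylow
  obtain ⟨g₁, hg₁⟩ := MulAction.exists_smul_eq G P₁ P
  have hU₁P : U.map (MulAut.conj g₁).toMonoidHom ≤ (P : Subgroup G) := by
    rintro _ ⟨x, hx, rfl⟩
    rw [← hg₁, Sylow.coe_subgroup_smul]
    exact Subgroup.smul_mem_pointwise_smul _ (MulAut.conj g₁) _ (hP₁ hx)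
  obtain ⟨U', hUU', hU'n⟩ := exists_isFullyNormalized (groupFusionSystem (P : Subgroup G)) hU₁P
  obtain ⟨-, hU'P, g₂, hg₂⟩ := CfsgLib.FusionBasics.group_isConj.1 hUU'
  obtain ⟨D₀⟩ : Nonempty (PlaneData p U U) :=
    ⟨⟨e₁, hsurj, hmul, fun B => let ⟨m, hm, h'⟩ := hK B; ⟨m, hm, h'⟩⟩⟩
  obtain ⟨D₁⟩ := D₀.conj g₁
  obtain ⟨D₂⟩ := D₁.conj g₂
  rw [hg₂] at D₂
  -- enlarge `U'` to a centric subgroup
  have hU'c := (centralized_automized_of_fullyNormalized P.isPGroup'
    (CfsgLib.FusionBasics.group_isSaturated P) hU'n).1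
  obtain ⟨Q, hQ⟩ : ∃ Q, Q = U' ⊔ centralizerIn (P : Subgroup G) U' := ⟨_, rfl⟩
  have hQc : (groupFusionSystem (P : Subgroup G)).IsCentric Q :=
    hQ ▸ isCentric_sup_centralizerIn hU'c
  obtain ⟨R', hR'⟩ := (CfsgLib.FusionBasics.group_isFullyCentralized_iff P hU'P).1 hU'c
  have hD₃ : Nonempty (PlaneData p U' Q) := by
    refine ⟨⟨D₂.e, D₂.surj, D₂.mul, fun B => ?_⟩⟩
    obtain ⟨m, hm, hmU⟩ := D₂.act B
    -- Frattini in `N(U')` over `C(U')`
    have hCn : m ∈ Subgroup.normalizer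
        ((Subgroup.centralizer (U' : Set G) : Subgroup G) : Set G) := by
      rw [Subgroup.mem_normalizer_iff_map_conj_eq]
      refine (CfsgLib.FusionBasics.map_conj_centralizer m U').trans ?_
      exact congrArg (fun T : Subgroup G => Subgroup.centralizer (T : Set G))
        (Subgroup.mem_normalizer_iff_map_conj_eq.1 hm)
    obtain ⟨C, hC⟩ : ∃ C, C = Subgroup.centralizer (U' : Set G) := ⟨_, rfl⟩
    obtain ⟨Z, hZ⟩ : ∃ Z, Z = centralizerIn (P : Subgroup G) U' := ⟨_, rfl⟩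
    have hZC : Z ≤ C := hZ ▸ hC ▸ inf_le_right
    rw [← hC] at hCn
    have hZm : Z.map (MulAut.conj m).toMonoidHom ≤ C := by
      rintro _ ⟨z, hz, rfl⟩
      exact mem_normalizer_conj hCn (hZC hz)
    obtain ⟨c, hc, hcm⟩ : ∃ c ∈ C, ∀ z ∈ Z, c * (m * z * m⁻¹) * c⁻¹ ∈ Z := by
      subst hC
      have hp' : IsPGroup p ((Z.map (MulAut.conj m).toMonoidHom).subgroupOf
          (Subgroup.centralizer (U' : Set G))) :=
        ((P.isPGroup'.to_le (hZ ▸ inf_le_left)).map _).comap_subtype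
      obtain ⟨R₁, hR₁⟩ := hp'.exists_le_sylow
      obtain ⟨c, hc⟩ := MulAction.exists_smul_eq ↥(Subgroup.centralizer (U' : Set G)) R₁ R'
      refine ⟨c, c.2, fun z hz => ?_⟩
      have h1 : c * ⟨m * z * m⁻¹, hZm ⟨z, hz, rfl⟩⟩ * c⁻¹ ∈
          ((R' : Sylow p _) : Subgroup ↥(Subgroup.centralizer (U' : Set G))) := by
        rw [← hc, Sylow.coe_subgroup_smul]
        exact Subgroup.smul_mem_pointwise_smul _ (MulAut.conj c) _ (hR₁ ⟨z, hz, rfl⟩)
      rw [hR', Subgroup.mem_subgroupOf] at h1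
      exact hZ ▸ h1
    have hcU : ∀ u ∈ U', c * u * c⁻¹ = u := fun u hu => by
      rw [← (hC.le hc) u hu, mul_inv_cancel_right]
    refine ⟨c * m, ?_, fun u => ?_⟩
    · rw [Subgroup.mem_normalizer_iff_map_conj_eq]
      refine Subgroup.eq_of_le_of_card_ge ?_ (by
        rw [Subgroup.card_map_of_injective (MulAut.conj (c * m)).injective])
      rw [Subgroup.map_le_iff_le_comap, hQ, ← hZ]
      refine sup_le (fun x hx => Subgroup.mem_sup_left ?_) fun z hz => Subgroup.mem_sup_right ?_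
      · show c * m * x * (c * m)⁻¹ ∈ U'
        rw [show c * m * x * (c * m)⁻¹ = c * (m * x * m⁻¹) * c⁻¹ by group,
          hcU _ (mem_normalizer_conj hm hx)]
        exact mem_normalizer_conj hm hx
      · show c * m * z * (c * m)⁻¹ ∈ Z
        rw [show c * m * z * (c * m)⁻¹ = c * (m * z * m⁻¹) * c⁻¹ by group]
        exact hcm z hz
    · obtain ⟨h', he⟩ := hmU u
      have e1 : c * m * (u : G) * (c * m)⁻¹ = m * u * m⁻¹ := by
        rw [show c * m * (u : G) * (c * m)⁻¹ = c * (m * u * m⁻¹) * c⁻¹ by group, hcU _ h']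
      exact ⟨e1 ▸ h', (congrArg D₂.e (Subtype.ext e1)).trans he⟩
  obtain ⟨D₃⟩ := hD₃
  -- move to a fully normalized conjugate
  obtain ⟨Q', hQQ', hQ'n⟩ := exists_isFullyNormalized (groupFusionSystem (P : Subgroup G)) hQc.1
  obtain ⟨-, -, g₃, hg₃⟩ := CfsgLib.FusionBasics.group_isConj.1 hQQ'
  obtain ⟨D₄⟩ := D₃.conj g₃
  rw [hg₃] at D₄
  have hle : U'.map (MulAut.conj g₃).toMonoidHom ≤ Q' :=
    hg₃ ▸ Subgroup.map_mono (hQ ▸ le_sup_left)
  exact D₄.not_sectionFree hp P hle hQ'n (isCentric_of_isConj hQc hQQ')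

end CfsgLib.FusionSub
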