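import Cfsg.Agent.Lib.Amalgams.Involves
import Cfsg.Agent.Lib.Amalgams.Qd
import Cfsg.Prelude.Def_PLocal
import Mathlib.GroupTheory.Sylow

/-!
Recognition of a section `Qd(p)`: a normal subgroup isomorphic to the plane over `ZMod p` in a
group inducing all of `SL₂(p)` on it, `p` odd.
-/

set_option autoImplicit false
set_option linter.unusedSectionVars false
set_option linter.style.haveILetI false

open Matrix
open scoped MatrixGroups

namespace CfsgLib.FusionSub

open Cfsg CfsgLib.Amalgams.Qd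

variable {p : ℕ} [Fact p.Prime]

/-- `qd p` as `qdOver (ZMod p)`. -/
theorem qd_eq_qdOver : Cfsg.qd p = qdOver (ZMod p) := rfl

/-- The linear action on pairs. -/
def planeAct (A : SL(2, ZMod p)) (v : ZMod p × ZMod p) : ZMod p × ZMod p :=
  ((A : Matrix (Fin 2) (Fin 2) (ZMod p)) 0 0 * v.1 + (A : Matrix (Fin 2) (Fin 2) (ZMod p)) 0 1 * v.2,
   (A : Matrix (Fin 2) (Fin 2) (ZMod p)) 1 0 * v.1 + (A : Matrix (Fin 2) (Fin 2) (ZMod p)) 1 1 * v.2)

theorem planeAct_mul (A B : SL(2, ZMod p)) (v : ZMod p × ZMod p) :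
    planeAct (A * B) v = planeAct A (planeAct B v) := by
  refine Prod.ext ?_ ?_ <;>
    simp [planeAct, Matrix.mul_apply, Fin.sum_univ_two] <;> ring

theorem planeAct_one (v : ZMod p × ZMod p) : planeAct (1 : SL(2, ZMod p)) v = v := by
  refine Prod.ext ?_ ?_ <;> simp [planeAct]

theorem planeAct_injective {A B : SL(2, ZMod p)} (h : ∀ v, planeAct A v = planeAct B v) : A = B := by
  have h1 := h (1, 0)
  have h2 := h (0, 1)
  simp only [planeAct, mul_one, mul_zero, add_zero, zero_add, Prod.ext_iff] at h1 h2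
  apply Subtype.ext
  ext i j
  fin_cases i <;> fin_cases j <;> simp [h1.1, h1.2, h2.1, h2.2]

/-- The translation by a vector. -/
def shift (v : ZMod p × ZMod p) : qdOver (ZMod p) := aff 1 v.1 v.2

theorem shift_injective : Function.Injective (shift (p := p)) := fun v w h =>
  Prod.ext (aff_inj.1 h).2.1 (aff_inj.1 h).2.2

theorem shift_add (v w : ZMod p × ZMod p) : shift (v + w) = shift v * shift w :=
  (trans_mul v.1 v.2 w.1 w.2).symm

theorem conj_shift (M : qdOver (ZMod p)) (v : ZMod p × ZMod p) :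
    M * shift v * M⁻¹ = shift (planeAct (lin (F := ZMod p) M) v) := by
  obtain ⟨A, c, f, h⟩ := exists_eq_aff M
  have hl : lin (F := ZMod p) M = A := (congrArg (lin (F := ZMod p)) h).trans (lin_aff A c f)
  exact (congrArg (fun N => N * shift v * N⁻¹) h).trans
    ((aff_conj_trans A c f v.1 v.2).trans (congrArg (fun B => shift (planeAct B v)) hl.symm))

variable {X : Type*} [Group X] [Finite X]

/-- **Recognition of `Qd(p)`.** -/
theorem involves_qd_of_action (hp : p ≠ 2) {A : Subgroup X} [hA : A.Normal]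
    (e : A → ZMod p × ZMod p) (he : Function.Bijective e) (hmul : ∀ a b : A, e (a * b) = e a + e b)
    (σ : X →* SL(2, ZMod p)) (hσ : Function.Surjective σ)
    (hact : ∀ (g : X) (a : A), e ⟨g * (a : X) * g⁻¹, hA.conj_mem _ a.2 g⟩ = planeAct (σ g) (e a)) :
    Involves ↥(Cfsg.qd p) X := by
  haveI : Fact (Nat.Prime 2) := ⟨Nat.prime_two⟩
  have hp' := (Fact.out : p.Prime)
  have hone : e 1 = 0 := by
    have := hmul 1 1
    rw [one_mul] at this
    exact add_eq_left.1 this.symm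
  let m1 : SL(2, ZMod p) := ⟨!![-1, 0; 0, -1], by simp [Matrix.det_fin_two]⟩
  have hm1 : m1 * m1 = 1 := by
    apply Subtype.ext
    show !![(-1 : ZMod p), 0; 0, -1] * !![-1, 0; 0, -1] = 1
    ext i j; fin_cases i <;> fin_cases j <;> simp [Matrix.mul_apply]
  have hm1c : ∀ B : SL(2, ZMod p), B * m1 * B⁻¹ = m1 := by
    intro B
    rw [mul_inv_eq_iff_eq_mul]
    apply Subtype.ext
    show (B : Matrix (Fin 2) (Fin 2) (ZMod p)) * !![-1, 0; 0, -1] =
      !![-1, 0; 0, -1] * (B : Matrix (Fin 2) (Fin 2) (ZMod p))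
    ext i j; fin_cases i <;> fin_cases j <;> simp [Matrix.mul_apply, Fin.sum_univ_two]
  have hm1v : ∀ v, planeAct m1 v = -v := fun v => by
    refine Prod.ext ?_ ?_ <;> simp [planeAct, m1]
  -- a `2`-element acting as `-1`
  obtain ⟨g₀, hg₀⟩ := hσ m1
  obtain ⟨s, r, hr, hsr⟩ : ∃ s r : ℕ, ¬ 2 ∣ r ∧ orderOf g₀ = 2 ^ s * r :=
    Nat.exists_eq_pow_mul_and_not_dvd (orderOf_pos g₀).ne' 2 (by norm_num)
  obtain ⟨z, hz⟩ : ∃ z, z = g₀ ^ r := ⟨_, rfl⟩
  have hσz : σ z = m1 := by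
    obtain ⟨q, hq⟩ : ∃ q, r = 2 * q + 1 := ⟨r / 2, by omega⟩
    rw [hz, map_pow, hg₀, hq, pow_succ, pow_mul, pow_two, hm1, one_pow, one_mul]
  have hz2 : z ^ 2 ^ s = 1 := by
    rw [hz, ← pow_mul, mul_comm, ← hsr, pow_orderOf_eq_one]
  -- the preimage of `±1` and its Sylow `2`-subgroup
  obtain ⟨Y, hY⟩ : ∃ Y : Subgroup X, Y = (Subgroup.zpowers m1).comap σ := ⟨_, rfl⟩
  haveI : (Subgroup.zpowers m1).Normal := ⟨fun x hx B => by
    obtain ⟨k, rfl⟩ := Subgroup.mem_zpowers_iff.1 hx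
    rw [← conj_zpow, hm1c]
    exact Subgroup.zpow_mem _ (Subgroup.mem_zpowers _) k⟩
  haveI : Y.Normal := hY ▸ inferInstance
  have hzY : z ∈ Y := by
    rw [hY, Subgroup.mem_comap, hσz]
    exact Subgroup.mem_zpowers _
  have hZp : IsPGroup 2 (Subgroup.zpowers (⟨z, hzY⟩ : Y)) := by
    rintro ⟨x, hx⟩
    obtain ⟨k, rfl⟩ := Subgroup.mem_zpowers_iff.1 hx
    refine ⟨s, Subtype.ext (Subtype.ext ?_)⟩
    simp only [Subgroup.coe_pow, Subgroup.coe_zpow, Subgroup.coe_one]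
    rw [← zpow_natCast, ← _root_.zpow_mul, mul_comm, _root_.zpow_mul, zpow_natCast, hz2, _root_.one_zpow]
  obtain ⟨S, hS⟩ := hZp.exists_le_sylow
  obtain ⟨S', hS'⟩ : ∃ S', S' = (S : Subgroup Y).map Y.subtype := ⟨_, rfl⟩
  obtain ⟨N, hN⟩ : ∃ N, N = Subgroup.normalizer (S' : Set X) := ⟨_, rfl⟩
  have hzN : z ∈ N := hN ▸ Subgroup.le_normalizer (hS' ▸ ⟨_, hS (Subgroup.mem_zpowers _), rfl⟩)
  have hzS' : z ∈ S' := hS' ▸ ⟨_, hS (Subgroup.mem_zpowers _), rfl⟩
  have hNσ : ∀ B : SL(2, ZMod p), ∃ n ∈ N, σ n = B := by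
    intro B
    obtain ⟨g, rfl⟩ := hσ B
    have hg : g ∈ Y ⊔ N := by
      rw [sup_comm, hN, hS', Sylow.normalizer_sup_eq_top]
      exact Subgroup.mem_top g
    obtain ⟨y, hy, n, hn, rfl⟩ := Subgroup.mem_sup_of_normal_left.1 hg
    rw [hY, Subgroup.mem_comap] at hy
    obtain ⟨k, hk⟩ := Subgroup.mem_zpowers_iff.1 hy
    exact ⟨z ^ k * n, N.mul_mem (N.zpow_mem hzN k) hn, by rw [map_mul, map_zpow, hσz, hk, map_mul]⟩
  have hdisj : ∀ a : A, (a : X) ∈ N → a = 1 := by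
    intro a ha
    rw [hN] at ha
    obtain ⟨k, hk⟩ := S.isPGroup'.map Y.subtype ⟨(a : X) * z * (a : X)⁻¹ * z⁻¹, by
      rw [← hS']
      refine S'.mul_mem ?_ (S'.inv_mem hzS')
      exact ((Subgroup.mem_normalizer_iff.1 ha) z).1 hzS'⟩
    have hc : (a : X) * z * (a : X)⁻¹ * z⁻¹ ∈ A := by
      rw [show (a : X) * z * (a : X)⁻¹ * z⁻¹ = (a : X) * (z * ((a⁻¹ : A) : X) * z⁻¹) by
        rw [Subgroup.coe_inv]; group]
      exact A.mul_mem a.2 (hA.conj_mem _ (a⁻¹ : A).2 z)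
    have hap : ∀ b : A, b ^ p = 1 := by
      intro b
      have hn : ∀ n : ℕ, e (b ^ n) = n • e b := by
        intro n
        induction n with
        | zero => simp [hone]
        | succ n ih => rw [pow_succ, hmul, ih, succ_nsmul]
      refine he.1 ?_
      rw [hn, hone]
      refine Prod.ext ?_ ?_ <;> simp
    have h1 : (a : X) * z * (a : X)⁻¹ * z⁻¹ = 1 := by
      have hd1 : orderOf ((a : X) * z * (a : X)⁻¹ * z⁻¹) ∣ 2 ^ k :=
        orderOf_dvd_of_pow_eq_one (congrArg Subtype.val hk)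
      have hd2 : orderOf ((a : X) * z * (a : X)⁻¹ * z⁻¹) ∣ p :=
        orderOf_dvd_of_pow_eq_one (congrArg Subtype.val (hap ⟨_, hc⟩))
      have hcop : Nat.Coprime (2 ^ k) p :=
        Nat.Coprime.pow_left k ((Nat.coprime_primes Nat.prime_two hp').2 (Ne.symm hp))
      exact orderOf_eq_one_iff.1 (Nat.eq_one_of_dvd_one (hcop ▸ Nat.dvd_gcd hd1 hd2))
    have h2 : z * (a : X) * z⁻¹ = (a : X) := by
      have : (a : X) * z = z * (a : X) := by
        have e1 := mul_inv_eq_one.1 h1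
        calc (a : X) * z = (a : X) * z * (a : X)⁻¹ * (a : X) := by group
          _ = z * (a : X) := by rw [e1]
      rw [← this, mul_inv_cancel_right]
    have h3 := hact z a
    rw [hσz, hm1v] at h3
    have h4 : e a = - e a :=
      (congrArg e (Subtype.ext h2.symm : a = ⟨z * (a : X) * z⁻¹, hA.conj_mem _ a.2 z⟩)).trans h3
    have hz0 : ∀ t : ZMod p, t = -t → t = 0 := by
      intro t ht
      have : (2 : ZMod p) * t = 0 := by linear_combination ht
      rcases mul_eq_zero.1 this with h | h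
      · exfalso
        have h5 : ((2 : ℕ) : ZMod p) = 0 := by exact_mod_cast h
        rw [ZMod.natCast_eq_zero_iff] at h5
        exact hp ((Nat.prime_dvd_prime_iff_eq hp' Nat.prime_two).1 h5)
      · exact h
    refine he.1 ?_
    rw [hone]
    exact Prod.ext (hz0 _ (congrArg Prod.fst h4)) (hz0 _ (congrArg Prod.snd h4))
  -- the map onto `Qd(p)`
  have hdec : ∀ y : ↥(A ⊔ N), ∃ (a : A) (n : X), n ∈ N ∧ (y : X) = a * n := fun y => by
    obtain ⟨a, ha, n, hn, he'⟩ := Subgroup.mem_sup_of_normal_left.1 y.2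
    exact ⟨⟨a, ha⟩, n, hn, he'.symm⟩
  choose fa fn hfn hfe using hdec
  have huniq : ∀ (a b : A) (n m : X), n ∈ N → m ∈ N → (a : X) * n = b * m → a = b ∧ n = m := by
    intro a b n m hn hm h
    have h1 : ((b⁻¹ * a : A) : X) ∈ N := by
      rw [Subgroup.coe_mul, Subgroup.coe_inv, show (b : X)⁻¹ * (a : X) = m * n⁻¹ by
        rw [eq_mul_inv_iff_mul_eq, mul_assoc, h]; group]
      exact N.mul_mem hm (N.inv_mem hn)
    have h2 : a = b := (inv_mul_eq_one.1 (hdisj _ h1)).symm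
    refine ⟨h2, ?_⟩
    rw [h2] at h
    exact mul_left_cancel h
  let f : ↥(A ⊔ N) →* ↥(qdOver (ZMod p)) := MonoidHom.mk'
    (fun y => shift (e (fa y)) * aff (σ (fn y)) 0 0) fun y y' => by
      have hn := hfn y
      have h := huniq (fa (y * y')) (fa y * ⟨fn y * (fa y' : X) * (fn y)⁻¹, hA.conj_mem _ (fa y').2 _⟩)
        (fn (y * y')) (fn y * fn y') (hfn _) (N.mul_mem hn (hfn _)) (by
          rw [← hfe, Subgroup.coe_mul, hfe y, hfe y', Subgroup.coe_mul]
          group)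
      show shift (e (fa (y * y'))) * aff (σ (fn (y * y'))) 0 0 =
        shift (e (fa y)) * aff (σ (fn y)) 0 0 * (shift (e (fa y')) * aff (σ (fn y')) 0 0)
      rw [h.1, h.2, hmul, hact, shift_add, map_mul]
      have e1 : aff (σ (fn y) * σ (fn y')) (0 : ZMod p) 0 =
          aff (σ (fn y)) 0 0 * aff (σ (fn y')) 0 0 := by
        rw [aff_mul]; simp
      have e2 : shift (planeAct (σ (fn y)) (e (fa y'))) =
          aff (σ (fn y)) 0 0 * shift (e (fa y')) * (aff (σ (fn y)) 0 0)⁻¹ := by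
        exact ((conj_shift (aff (σ (fn y)) 0 0) (e (fa y'))).trans (congrArg (fun B => shift (planeAct B (e (fa y')))) (lin_aff _ _ _))).symm
      rw [e1, e2]
      group
  have hf : Function.Surjective f := by
    intro M
    obtain ⟨B, c, d, rfl⟩ := exists_eq_aff M
    obtain ⟨a, ha⟩ := he.2 (c, d)
    obtain ⟨n, hn, hnB⟩ := hNσ B
    refine ⟨⟨(a : X) * n, Subgroup.mul_mem_sup a.2 hn⟩, ?_⟩
    obtain ⟨h1, h2⟩ := huniq _ a _ n (hfn ⟨(a : X) * n, Subgroup.mul_mem_sup a.2 hn⟩) hn (hfe _).symm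
    show shift (e (fa _)) * aff (σ (fn _)) 0 0 = _
    rw [h1, h2, ha, hnB, shift, aff_mul, aff_inj]
    simp
  exact CfsgLib.Amalgams.involves_of_surjective f hf

end CfsgLib.FusionSub
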